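import Mathlib

/-!
# Automizers of abelian Sylow subgroups
-/

set_option autoImplicit false

namespace H62

/-- If a `p`-element `x` with `x ^ 2 ≠ 1` is conjugate to its inverse, then the automizer of an
abelian Sylow `p`-subgroup has even order. -/
theorem two_dvd_automizer_of_isConj_inv {G : Type*} [Group G] [Finite G] {p : ℕ} [Fact p.Prime]
    (P : Sylow p G) (hP : IsMulCommutative (P : Subgroup G)) {x : G} {k : ℕ}
    (hx : x ^ p ^ k = 1) (h2 : x ^ 2 ≠ 1) (hc : IsConj x x⁻¹) :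
    2 ∣ ((Subgroup.centralizer ((P : Subgroup G) : Set G)).subgroupOf
      (Subgroup.normalizer ((P : Subgroup G) : Set G))).index := by
  have h1 : IsPGroup p (Subgroup.zpowers x) := by
    obtain ⟨j, -, hj⟩ := (Nat.dvd_prime_pow Fact.out).1 (orderOf_dvd_of_pow_eq_one hx)
    exact IsPGroup.of_card (by rw [Nat.card_zpowers, hj])
  obtain ⟨Q, hQ⟩ := h1.exists_le_sylow
  obtain ⟨g, rfl⟩ := MulAction.exists_smul_eq G P Q
  have h3 : g⁻¹ * x * g ∈ (P : Subgroup G) := by
    have := hQ (Subgroup.mem_zpowers x)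
    rw [Sylow.coe_subgroup_smul, Subgroup.mem_pointwise_smul_iff_inv_smul_mem] at this
    simpa using this
  obtain ⟨t, ht⟩ := isConj_iff.1 hc
  set y := g⁻¹ * x * g with hy
  have h4 : (g⁻¹ * t⁻¹ * g)⁻¹ * y * (g⁻¹ * t⁻¹ * g) = y⁻¹ := by
    rw [hy]
    calc _ = g⁻¹ * (t * x * t⁻¹) * g := by group
      _ = _ := by rw [ht]; group
  obtain ⟨n, hn, h5⟩ := P.conj_eq_normalizer_conj_of_mem y (g⁻¹ * t⁻¹ * g) h3
    (by rw [h4]; exact Subgroup.inv_mem _ h3)
  rw [h4] at h5
  clear_value y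
  by_contra hodd
  obtain ⟨m, hm⟩ := Nat.not_even_iff_odd.1 (fun h => hodd (even_iff_two_dvd.1 h))
  have h6 := Subgroup.pow_index_mem ((Subgroup.centralizer ((P : Subgroup G) : Set G)).subgroupOf
      (Subgroup.normalizer ((P : Subgroup G) : Set G))) ⟨n, hn⟩
  rw [Subgroup.mem_subgroupOf, hm] at h6
  have h7 : y * n ^ (2 * m + 1) = n ^ (2 * m + 1) * y := h6 y h3
  have h8 : y * n = n * y⁻¹ := by rw [h5]; group
  have h9 : Commute y (n ^ 2) := by
    have h10 : y⁻¹ * n = n * y := by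
      calc y⁻¹ * n = y⁻¹ * (n * y⁻¹) * y := by group
        _ = n * y := by
          rw [← h8]
          group
    change y * n ^ 2 = n ^ 2 * y
    rw [sq, ← mul_assoc, h8, mul_assoc, h10, mul_assoc]
  rw [pow_succ, pow_mul, ← mul_assoc, (h9.pow_right m).eq, mul_assoc, mul_assoc, h8,
    mul_right_inj, mul_right_inj] at h7
  apply h2
  have h11 : y ^ 2 = 1 := by rw [sq, mul_eq_one_iff_eq_inv, h7]
  have h12 : x = g * y * g⁻¹ := by rw [hy]; group
  rw [h12, conj_pow, h11]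
  simp

theorem not_sq_dvd_factorial {p n : ℕ} (hp : p.Prime) (h : n < 2 * p) : ¬ p ^ 2 ∣ n.factorial := by
  have : Fact p.Prime := ⟨hp⟩
  rw [padicValNat_dvd_iff_le (Nat.factorial_ne_zero n),
    padicValNat_factorial (b := Nat.log p n + 2) (by omega), not_le]
  have h1 : ∀ i ∈ Finset.Ico 1 (Nat.log p n + 2), i ≠ 1 → n / p ^ i = 0 := by
    intro i hi h2
    have h3 : 2 ≤ i := by have := (Finset.mem_Ico.1 hi).1; omega
    apply Nat.div_eq_of_lt
    calc n < 2 * p := h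
      _ ≤ p * p := Nat.mul_le_mul_right _ hp.two_le
      _ = p ^ 2 := (sq p).symm
      _ ≤ p ^ i := Nat.pow_le_pow_right hp.pos h3
  rw [Finset.sum_eq_single 1 h1 (by simp), pow_one]
  exact (Nat.div_lt_iff_lt_mul hp.pos).2 h

end H62
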